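import Cfsg.Agent.H568.AS.Base
import Cfsg.Agent.H585.SuE7
import Cfsg.Agent.H934.HeisE7
import Cfsg.Agent.S2124

/-!
# `AS2` for `E7(q)` (helper568)
-/

set_option autoImplicit false
set_option linter.unusedSectionVars false

namespace Cfsg.Agent.H568.AS.E7

open Cfsg Cfsg.Lie Cfsg.Agent.H129 Cfsg.Agent.Nodes.RGDChev Cfsg.Agent.H129.TorusTw Cfsg.Agent.H585.SuRow
  Cfsg.Agent.H585.SuSel Cfsg.Agent.H585.SuPhi Cfsg.Agent.H62.PPChev Cfsg.Agent.H585.SuE7 Cfsg.Agent.H965.AS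

universe u

variable {F : Type u} [Field F] [Fintype F]

theorem card_le {q N t : ℕ} (hq : 2 ≤ q) (h : t ∣ (q + 1) * N) (hN0 : 0 < N) (hN : N ≤ q ^ 6) : t ≤ 2 * q ^ 7 := by
  refine (Nat.le_of_dvd (Nat.mul_pos (by omega) hN0) h).trans ?_
  calc (q + 1) * N ≤ (2 * q) * q ^ 6 := Nat.mul_le_mul (by omega) hN
    _ = 2 * q ^ 7 := by ring

theorem le18 {q N : ℕ} (hq : 2 ≤ q) (hN : (N : ℤ) = 1 - (q : ℤ) ^ 3 + (q : ℤ) ^ 6) : 0 < N ∧ N ≤ q ^ 6 := by
  have h1 : 1 ≤ q ^ 3 := Nat.one_le_pow _ _ (by omega)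
  have h2 : q ^ 3 ≤ q ^ 6 := Nat.pow_le_pow_right (by omega) (by norm_num)
  have h1' : (1 : ℤ) ≤ (q : ℤ) ^ 3 := by exact_mod_cast h1
  have h2' : (q : ℤ) ^ 3 ≤ (q : ℤ) ^ 6 := by exact_mod_cast h2
  constructor
  · have : (0 : ℤ) < (N : ℤ) := by rw [hN]; linarith
    exact_mod_cast this
  · have : (N : ℤ) ≤ (q : ℤ) ^ 6 := by rw [hN]; linarith
    exact_mod_cast this

/-- the small fields -/
theorem small18 {q N r m : ℕ} {L : List (ℕ × ℕ)} {p : ℕ} (hF : Fintype.card F = q) (hN : (N : ℤ) = 1 - (q : ℤ) ^ 3 + (q : ℤ) ^ 6)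
    (hr : r.Prime) (h7 : 7 < r) (hrN : r ∣ N) (hrN2 : ¬ r ^ 2 ∣ N) (hf : ∃ p f : ℕ, p.Prime ∧ q = p ^ f ∧ ¬ r ∣ f) (hnd : ¬ r ∣ (q + 1)) 
    (hm0 : m * (q ^ 63 * (q ^ 2 - 1) * (q ^ 6 - 1) * (q ^ 8 - 1) * (q ^ 10 - 1) * (q ^ 12 - 1) * (q ^ 14 - 1) * (q ^ 18 - 1)) = pp L)
    (hprime : ∀ x ∈ L, x.1.Prime) (hnodup : (L.map Prod.fst).Nodup) (hp : p.Prime) (hpq : p ∣ q)
    (hchk : Chk r p L) (hq : 2 ≤ q) : RowB ↥(chevE7.group F) q (2 * q ^ 7) := by
  obtain ⟨T, h1, h2, h3, h4, h5⟩ := torus18 hF hN hr h7 hrN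
  have ho : orderOf (q : ZMod r) = 18 := by
    rcases ord18 hN r hr hrN with h | h
    · exact h
    · omega
  refine RowB.mono (rowB_small_of typ 18 hF hr (by omega) ho hrN hrN2 hf h1 h5 hnd h2 h3 (fun h => by have := Nat.le_of_dvd (by norm_num) h; omega) h4 ndv18 (L := L) (m := m * Nat.gcd 2 (q - 1))
    ?_ hprime hnodup hp hpq hchk) (card_le hq h2 (le18 hq hN).1 (le18 hq hN).2)
  have h := Cfsg.Agent.S1064.result (F := F) hF
  rw [show m * Nat.gcd 2 (q - 1) * Nat.card ↥(chevE7.group F) = m * (Nat.gcd 2 (q - 1) * Nat.card ↥(chevE7.group F)) by ring, h]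
  exact hm0

open CoxeterSystem Cfsg.Agent.H585.SuOwn Cfsg.Agent.H585.SuTor Cfsg.Agent.H465.SU Cfsg.Agent.H585.SuUntw

theorem row_two (hF : Fintype.card F = 2) : RowB ↥(chevE7.group F) 2 (2 * 2 ^ 7) := by
  obtain ⟨p', hpc⟩ := CharP.exists F
  have hpp : p' = 2 := by
    obtain ⟨f, hp', hf⟩ := FiniteField.card F p'
    rw [hF] at hf
    have h2 : 2 ∣ p' ^ (f : ℕ) := by rw [← hf]
    exact ((Nat.prime_dvd_prime_iff_eq Nat.prime_two hp').1 (Nat.prime_two.dvd_of_dvd_pow h2)).symm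
  subst hpp
  have hr : Nat.Prime 43 := by norm_num
  obtain ⟨T, h1, h2, h3, h4, h5⟩ := torus14 (q := 2) (N := 43) hF (by norm_num) hr (by norm_num) dvd_rfl
  have hcard : Nat.card ↥(chevE7.group F) ∣ pp [(2, 63), (3, 11), (5, 2), (7, 3), (11, 1), (13, 1), (17, 1), (19, 1), (31, 1), (43, 1), (73, 1), (127, 1)] := by
    have h := Cfsg.Agent.S1064.result (F := F) hF
    refine Dvd.intro_left (Nat.gcd 2 (2 - 1)) ?_
    rw [h]
    decide +kernel
  obtain ⟨y, hy1, hy2, hy3⟩ := Cfsg.Agent.H585.SuTor.exists_SU_small (p := 2) hr h1 h5 h2 h3 (by norm_num)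
    (Dvd.intro_left 3 (by norm_num) : 43 ∣ (2 + 1) * 43) (by norm_num) (by norm_num)
    (fun x hx hC S hS hn => own_char2 typ CoxeterMatrix.E₇.toCoxeterSystem h4_E7 h6_E7 2 hr
      (fun i => by
        rw [hF]
        have key : ∀ i : Fin 7, ¬ 43 ∣ 2 ^ num chevE7 i - 1 ∨ ¬ 43 ∣ 2 ^ num2 chevE7 i - 1 := by decide +kernel
        exact key i) x hx hC S hS hn)
    (arith_of_list hr hcard (by norm_num) (by decide) (by decide +kernel))
  exact (RowB.intro (a := 1) hr (by norm_num) le_rfl hy1 hy2 hy3 ⟨2, 1, by norm_num, by norm_num, by norm_num⟩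
    (T := T) (pow_dvd_of (d := 2) (N := (2 + 1) * 43) hr (by norm_num) (by norm_num) h3) h5).mono
    (card_le (q := 2) (N := 43) (by norm_num) h2 (by norm_num) (by norm_num))

theorem rowB : RowB ↥(chevE7.group F) (Fintype.card F) (2 * Fintype.card F ^ 7) := by
  obtain ⟨q, hF⟩ : ∃ q, Fintype.card F = q := ⟨_, rfl⟩
  have hq2 : 2 ≤ q := by rw [← hF]; exact Fintype.one_lt_card
  rw [hF]
  have hle : q ^ 3 ≤ q ^ 6 := Nat.pow_le_pow_right (by omega) (by norm_num)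
  obtain ⟨N, hNdef⟩ : ∃ N, N = q ^ 6 - q ^ 3 + 1 := ⟨_, rfl⟩
  have hN : (N : ℤ) = 1 - (q : ℤ) ^ 3 + (q : ℤ) ^ 6 := by rw [hNdef]; push_cast [Nat.cast_sub hle]; ring
  rcases sel_of (F := F) (d := 133) (B := 2131226751) hF (by norm_num) (by norm_num) (by omega) (ord18 hN) (sq18 hN) (dvd18 hN)
    (by decide +kernel) (by norm_num) with ⟨r, a, hr, ha, ho, haN, haN', hd, hf⟩ | hB
  · obtain ⟨hmod, h6⟩ := mod_eq_one hr (by norm_num) ho
    obtain ⟨T, h1, h2, h3, h4, h5⟩ := torus18 hF hN hr (by omega) (dvd18 hN r hr ho)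
    refine RowB.mono (rowB_of typ hF hr (by omega) ha ho haN haN' (by rw [dim]; exact hd) hf h1 h5
      (fun h => by
        have h1 := ho
        have h2 : r ∣ q ^ 2 - 1 := by
          have e1 : q ^ 2 - 1 = (q + 1) * (q - 1) := by
            have := Nat.sq_sub_sq q 1
            simpa using this
          rw [e1]
          exact h.mul_right _
        rw [dvd_pow_sub_one (by omega), h1] at h2
        revert h2
        norm_num) h2 h3 (fun h => by have := Nat.le_of_dvd (by norm_num) h; omega) h4 ndv18)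
      (card_le hq2 h2 (le18 hq2 hN).1 (le18 hq2 hN).2)
  · have hq4 : q ≤ 35 := by
      have := Nat.le_of_dvd (by norm_num) hB
      by_contra h
      push Not at h
      have h2 : 36 ^ 3 * q ^ 3 ≤ q ^ 3 * q ^ 3 := Nat.mul_le_mul_right _ (Nat.pow_le_pow_left h 3)
      have h3 : 36 ^ 3 ≤ q ^ 3 := Nat.pow_le_pow_left h 3
      have h4 : q ^ 6 = q ^ 3 * q ^ 3 := by ring
      omega
    subst hNdef
    have hcases : q = 2 ∨ q = 3 ∨ q = 4 := by
      clear hN hF hle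
      interval_cases q <;> revert hB <;> norm_num
    rcases hcases with rfl | rfl | rfl
    · exact row_two hF
    · exact small18 (r := 37) (m := 1) (L := [(2, 24), (3, 63), (5, 2), (7, 3), (11, 2), (13, 3), (19, 1), (37, 1), (41, 1), (61, 1), (73, 1), (547, 1), (757, 1), (1093, 1)]) (p := 3) hF hN (by norm_num) (by norm_num)
        (by norm_num) (by norm_num) ⟨3, 1, by norm_num, by norm_num, by norm_num⟩ (by norm_num) (by decide +kernel) (by norm_num)
        (by decide) (by norm_num) (by norm_num) (by decide +kernel) (by norm_num)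
    · exact small18 (r := 109) (m := 1) (L := [(2, 126), (3, 11), (5, 8), (7, 3), (11, 1), (13, 3), (17, 2), (19, 1), (29, 1), (31, 1), (37, 1), (41, 1), (43, 1), (73, 1), (109, 1), (113, 1), (127, 1), (241, 1), (257, 1)]) (p := 2) hF hN (by norm_num) (by norm_num)
        (by norm_num) (by norm_num) ⟨2, 2, by norm_num, by norm_num, by norm_num⟩ (by norm_num) (by decide +kernel) (by norm_num)
        (by decide) (by norm_num) (by norm_num) (by decide +kernel) (by norm_num)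


/-- **`E7(q)`.** -/
theorem as2_group [IsSimpleGroup ↥(chevE7.group F)] (hna : ¬ IsMulCommutative ↥(chevE7.group F)) :
    AS2 ↥(chevE7.group F) := by
  have hq : 2 ≤ Fintype.card F := Fintype.one_lt_card
  refine as2_of hna rowB (b := 2 * Fintype.card F ^ 17) ?_ (H934.HeisE7.two_mul_le inferInstance) ?_
  · intro r p f hr h7 hp hF hf
    have : Fact p.Prime := ⟨hp⟩
    have : CharP F p := charP_of_card_eq_prime_pow hF
    rw [S2124.result p f hF]
    exact not_dvd_mul hr h7 hf (Nat.gcd_pos_of_pos_left _ (by norm_num)) ((Nat.gcd_le_left _ (by norm_num)).trans (by norm_num))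
  · have h1 : Fintype.card F ^ 7 ≤ Fintype.card F ^ 17 := Nat.pow_le_pow_right (by omega) (by norm_num)
    have h2 : 1 ≤ Fintype.card F ^ 7 := Nat.one_le_pow _ _ (by omega)
    omega

theorem as2 {K : Type u} [Group K] [Finite K] [IsSimpleGroup K] (hna : ¬ IsMulCommutative K)
    (h : ∃ (F : Type) (_ : Field F) (_ : Fintype F), Nonempty (K ≃* ↥(chevE7.group F))) : AS2 K := by
  obtain ⟨F, _, _, ⟨e⟩⟩ := h
  have : IsSimpleGroup ↥(chevE7.group F) := (MulEquiv.isSimpleGroup_congr e).1 inferInstance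
  refine AS2.of_equiv e (as2_group fun h => hna ⟨⟨fun a b => e.injective ?_⟩⟩)
  rw [map_mul, map_mul]
  exact h.is_comm.comm _ _

end Cfsg.Agent.H568.AS.E7
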