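import Cfsg.Agent.H568.AS.Base
import Cfsg.Agent.H585.SuE8
import Cfsg.Agent.H934.HeisE8
import Cfsg.Agent.S2125

/-!
# `AS2` for `E8(q)` (helper568)
-/

set_option autoImplicit false
set_option linter.unusedSectionVars false

namespace Cfsg.Agent.H568.AS.E8

open Cfsg Cfsg.Lie Cfsg.Agent.H129 Cfsg.Agent.Nodes.RGDChev Cfsg.Agent.H129.TorusTw Cfsg.Agent.H585.SuRow
  Cfsg.Agent.H585.SuSel Cfsg.Agent.H585.SuPhi Cfsg.Agent.H62.PPChev Cfsg.Agent.H585.SuE8 Cfsg.Agent.H965.AS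

universe u

variable {F : Type u} [Field F] [Fintype F]

theorem rowB : RowB ↥(chevE8.group F) (Fintype.card F) (2 * Fintype.card F ^ 8) := by
  obtain ⟨q, hF⟩ : ∃ q, Fintype.card F = q := ⟨_, rfl⟩
  have hq2 : 2 ≤ q := by rw [← hF]; exact Fintype.one_lt_card
  rw [hF]
  have hle : q ^ 5 + q ^ 4 + q ^ 3 ≤ q ^ 8 + q ^ 7 := by
    have h1 : q ^ 3 * (q ^ 2 + q + 1) ≤ q ^ 3 * (q ^ 5 + q ^ 4) := Nat.mul_le_mul_left _ (by
      have : q ^ 5 = q ^ 2 * q ^ 3 := by ring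
      have h8 : 8 ≤ q ^ 3 := by
        calc 8 = 2 ^ 3 := by norm_num
          _ ≤ q ^ 3 := Nat.pow_le_pow_left hq2 3
      nlinarith [Nat.pow_le_pow_right (show 1 ≤ q by omega) (show 1 ≤ 4 by norm_num)])
    nlinarith [h1]
  obtain ⟨N, hNdef⟩ : ∃ N, N = q ^ 8 + q ^ 7 - (q ^ 5 + q ^ 4 + q ^ 3) + q + 1 := ⟨_, rfl⟩
  have hN : (N : ℤ) = 1 + (q : ℤ) - (q : ℤ) ^ 3 - (q : ℤ) ^ 4 - (q : ℤ) ^ 5 + (q : ℤ) ^ 7 + (q : ℤ) ^ 8 := by rw [hNdef]; push_cast [Nat.cast_sub hle]; ring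
  have hNle : N ≤ 2 * q ^ 8 := by
    have h1 : 2 * q ^ 7 ≤ q ^ 8 := by
      rw [pow_succ q 7, mul_comm 2]
      exact Nat.mul_le_mul_left _ hq2
    have h2 : q ≤ q ^ 3 := by
      calc q = q ^ 1 := (pow_one q).symm
        _ ≤ q ^ 3 := Nat.pow_le_pow_right (by omega) (by norm_num)
    have h3 : 1 ≤ q ^ 7 := Nat.one_le_pow _ _ (by omega)
    have h4 : 1 ≤ q ^ 5 := Nat.one_le_pow _ _ (by omega)
    have h5 : 1 ≤ q ^ 4 := Nat.one_le_pow _ _ (by omega)
    omega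
  rcases sel_of (F := F) (d := 248) (B := 5256256431542) hF (by norm_num) (by norm_num) (by omega) (ord30 hN) (sq30 hN) (dvd30 hN)
    (by decide +kernel) (by norm_num) with ⟨r, a, hr, ha, ho, haN, haN', hd, hf⟩ | hB
  · obtain ⟨hmod, h6⟩ := mod_eq_one hr (by norm_num) ho
    obtain ⟨T, h1, h2, h3, h4, h5⟩ := torus30 hF hN hr (by omega) (dvd30 hN r hr ho)
    refine RowB.mono (rowB_of typ hF hr (by omega) ha ho haN haN' (by rw [dim]; exact hd) hf h1 h5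
      (fun h => hr.one_lt.ne' (Nat.dvd_one.1 h)) h2 h3 (fun h => by have := Nat.le_of_dvd (by norm_num) h; omega) h4 ndv30)
      ((Nat.le_of_dvd (by omega) h2).trans (by rw [one_mul]; exact hNle))
  · exfalso
    have hq4 : q ≤ 42 := by
      have := Nat.le_of_dvd (by norm_num) hB
      by_contra h
      push Not at h
      have h2 : 43 ^ 8 ≤ q ^ 8 := Nat.pow_le_pow_left h 8
      have h3 : q ^ 5 + q ^ 4 + q ^ 3 ≤ q ^ 7 := by
        have h4 : q ^ 7 = q ^ 3 * (q ^ 2 * q ^ 2) := by ring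
        have h5 : q ^ 5 + q ^ 4 + q ^ 3 = q ^ 3 * (q ^ 2 + q + 1) := by ring
        rw [h4, h5]
        refine Nat.mul_le_mul_left _ ?_
        nlinarith [sq_nonneg q, h]
      omega
    subst hNdef
    clear hN hF hle hNle
    interval_cases q <;> revert hB <;> norm_num

/-- **`E8(q)`.** -/
theorem as2_group [IsSimpleGroup ↥(chevE8.group F)] (hna : ¬ IsMulCommutative ↥(chevE8.group F)) :
    AS2 ↥(chevE8.group F) := by
  have hq : 2 ≤ Fintype.card F := Fintype.one_lt_card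
  refine as2_of hna rowB (b := 2 * Fintype.card F ^ 29) ?_ (H934.HeisE8.two_mul_le inferInstance) ?_
  · intro r p f hr h7 hp hF hf
    have : Fact p.Prime := ⟨hp⟩
    have : CharP F p := charP_of_card_eq_prime_pow hF
    rw [S2125.result p f hF]
    exact hf
  · have h1 : Fintype.card F ^ 8 ≤ Fintype.card F ^ 29 := Nat.pow_le_pow_right (by omega) (by norm_num)
    have h2 : 1 ≤ Fintype.card F ^ 8 := Nat.one_le_pow _ _ (by omega)
    omega

theorem as2 {K : Type u} [Group K] [Finite K] [IsSimpleGroup K] (hna : ¬ IsMulCommutative K)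
    (h : ∃ (F : Type) (_ : Field F) (_ : Fintype F), Nonempty (K ≃* ↥(chevE8.group F))) : AS2 K := by
  obtain ⟨F, _, _, ⟨e⟩⟩ := h
  have : IsSimpleGroup ↥(chevE8.group F) := (MulEquiv.isSimpleGroup_congr e).1 inferInstance
  refine AS2.of_equiv e (as2_group fun h => hna ⟨⟨fun a b => e.injective ?_⟩⟩)
  rw [map_mul, map_mul]
  exact h.is_comm.comm _ _

end Cfsg.Agent.H568.AS.E8
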